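import Mathlib
import Cfsg.Agent.Lib.Helper82.Alt2.Defs
import Cfsg.Agent.Lib.Helper62.Alt2.Klein

/-!
# S2928 package [CONN] (helper48): `Fam H` is connected
-/

set_option autoImplicit false

namespace Cfsg.Agent.Lib.Helper48.Alt2

open Equiv
open Cfsg.Agent.Lib.Helper38.Alt3 (QS altOn)
open Cfsg.Agent.Lib.Helper82.Alt2
open Cfsg.Agent.Lib.Helper62.Alt2

variable {n : ℕ}

/-- `Meets` is symmetric -/
theorem meets_symm {F : Set (Finset (Fin n))} {a b : Finset (Fin n)} (h : Meets F a b) :
    Meets F b a :=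
  ⟨h.2.1, h.1, by rw [Finset.inter_comm]; exact h.2.2⟩

theorem reach_symm {F : Set (Finset (Fin n))} {a b : Finset (Fin n)}
    (h : Relation.ReflTransGen (Meets F) a b) : Relation.ReflTransGen (Meets F) b a := by
  induction h with
  | refl => exact Relation.ReflTransGen.refl
  | tail _ hbc ih => exact Relation.ReflTransGen.head (meets_symm hbc) ih

theorem reach_mem {F : Set (Finset (Fin n))} {a b : Finset (Fin n)} (ha : a ∈ F)
    (h : Relation.ReflTransGen (Meets F) a b) : b ∈ F := by
  induction h with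
  | refl => exact ha
  | tail _ hbc _ => exact hbc.2.1

/-- a `DT` on a member `u` maps the class of `s` into itself -/
theorem dt_reach {H : Subgroup (Perm (Fin n))} {s u t : Finset (Fin n)} {g : Perm (Fin n)}
    (hs : s ∈ Fam H) (hu : u ∈ Fam H) (hg : DT u g)
    (ht : Relation.ReflTransGen (Meets (Fam H)) s t) :
    Relation.ReflTransGen (Meets (Fam H)) s (img g t) := by
  have htF : t ∈ Fam H := reach_mem hs ht
  by_cases hut : (t ∩ u).Nonempty
  · obtain ⟨x, hx⟩ := hut
    rw [Finset.mem_inter] at hx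
    have h1 : Meets (Fam H) t u := ⟨htF, hu, ⟨x, Finset.mem_inter.mpr hx⟩⟩
    have h2 : Meets (Fam H) u (img g t) := by
      refine ⟨hu, Fam_img htF (hu.2 g hg), ⟨g x, ?_⟩⟩
      rw [Finset.mem_inter]
      exact ⟨dt_apply_mem hg hx.2, apply_mem_img.mpr hx.1⟩
    exact (ht.tail h1).tail h2
  · have h3 : img g t = t := by
      ext y
      rw [mem_img]
      constructor
      · rintro ⟨x, hx, rfl⟩
        have hxu : x ∉ u := fun hxu => hut ⟨x, Finset.mem_inter.mpr ⟨hx, hxu⟩⟩
        rw [dt_apply_of_notMem hg hxu]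
        exact hx
      · intro hy
        have hyu : y ∉ u := fun hyu => hut ⟨y, Finset.mem_inter.mpr ⟨hy, hyu⟩⟩
        exact ⟨y, hy, dt_apply_of_notMem hg hyu⟩
    rw [h3]
    exact ht

/-- the group generated by the `DT`s on members preserves the class of `s` -/
theorem closure_reach {H : Subgroup (Perm (Fin n))} {s : Finset (Fin n)} (hs : s ∈ Fam H)
    {g : Perm (Fin n)} (hg : g ∈ Subgroup.closure {g | ∃ u ∈ Fam H, DT u g}) :
    ∀ t, Relation.ReflTransGen (Meets (Fam H)) s t ↔
      Relation.ReflTransGen (Meets (Fam H)) s (img g t) := by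
  induction hg using Subgroup.closure_induction with
  | mem g hg =>
    obtain ⟨u, hu, hgu⟩ := hg
    intro t
    refine ⟨dt_reach hs hu hgu, fun h => ?_⟩
    have h2 := dt_reach hs hu hgu h
    rw [← img_mul, hgu.1, img_one] at h2
    exact h2
  | one => intro t; rw [img_one]
  | mul a b _ _ ha hb => intro t; rw [img_mul, ← ha, ← hb]
  | inv a _ ha => intro t; rw [ha (img a⁻¹ t), ← img_mul, mul_inv_cancel, img_one]

/-- the group generated by the `DT`s on the class of `s` fixes the points outside its union -/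
theorem closure_fix {H : Subgroup (Perm (Fin n))} {s : Finset (Fin n)} {g : Perm (Fin n)}
    (hg : g ∈ Subgroup.closure
      {g | ∃ u, Relation.ReflTransGen (Meets (Fam H)) s u ∧ DT u g})
    {x : Fin n} (hx : ∀ u, Relation.ReflTransGen (Meets (Fam H)) s u → x ∉ u) : g x = x := by
  induction hg using Subgroup.closure_induction with
  | mem g hg =>
    obtain ⟨u, hu, hgu⟩ := hg
    exact dt_apply_of_notMem hgu (hx u hu)
  | one => rfl
  | mul a b _ _ ha hb => rw [Perm.mul_apply, hb, ha]
  | inv a _ ha => rw [Perm.inv_eq_iff_eq]; exact ha.symm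

theorem le_closure_reach {H L : Subgroup (Perm (Fin n))} (hM : PkgMove) (qs : QS H L)
    {s : Finset (Fin n)} (hs : s ∈ Fam H) :
    L ≤ Subgroup.closure {g | ∃ u, Relation.ReflTransGen (Meets (Fam H)) s u ∧ DT u g} := by
  have h1 := (hM n H L qs s hs).1
  have h2 : ∀ l ∈ L, Relation.ReflTransGen (Meets (Fam H)) s (img l s) := by
    intro l hl
    have h3 : l ∈ Subgroup.closure {g | ∃ u ∈ Fam H, DT u g} := by
      have h4 : Subgroup.closure {g | ∃ l ∈ L, DT (img l s) g} ≤
          Subgroup.closure {g | ∃ u ∈ Fam H, DT u g} := by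
        apply Subgroup.closure_mono
        rintro g ⟨l, hl, hg⟩
        exact ⟨img l s, Fam_img hs (qs.le hl), hg⟩
      exact h4 (h1 hl)
    exact (closure_reach hs h3 s).mp Relation.ReflTransGen.refl
  refine h1.trans (Subgroup.closure_mono ?_)
  rintro g ⟨l, hl, hg⟩
  exact ⟨img l s, h2 l hl, hg⟩

/-- **[CONN]** -/
theorem pkgConn_of (hM : PkgMove) : PkgConn := by
  intro n H L qs s hs t ht
  by_contra hst
  apply qs.ne
  rw [eq_bot_iff]
  intro l hl
  rw [Subgroup.mem_bot]
  refine Equiv.ext fun x => ?_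
  rw [Perm.one_apply]
  by_cases hx : ∃ u, Relation.ReflTransGen (Meets (Fam H)) s u ∧ x ∈ u
  · obtain ⟨u, hu, hxu⟩ := hx
    apply closure_fix (le_closure_reach hM qs ht hl)
    intro v hv hxv
    apply hst
    have huF : u ∈ Fam H := reach_mem hs hu
    have hvF : v ∈ Fam H := reach_mem ht hv
    have h1 : Meets (Fam H) u v := ⟨huF, hvF, ⟨x, Finset.mem_inter.mpr ⟨hxu, hxv⟩⟩⟩
    exact ((hu.tail h1).trans (reach_symm hv))
  · apply closure_fix (le_closure_reach hM qs hs hl)
    intro u hu hxu
    exact hx ⟨u, hu, hxu⟩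

end Cfsg.Agent.Lib.Helper48.Alt2
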