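import Mathlib
import Cfsg.Agent.Lib.Helper82.Alt2.Defs
import Cfsg.Agent.Lib.Helper62.Alt2.Klein

/-!
# S2928 package [SYL] (helper48): a Sylow `2`-subgroup of `Alt(n)` gives `n / 4` disjoint Klein
four-groups
-/

set_option autoImplicit false

namespace Cfsg.Agent.Lib.Helper48.Alt2

open Equiv
open Cfsg.Agent.Lib.Helper82.Alt2
open Cfsg.Agent.Lib.Helper62.Alt2

variable {n : ℕ}

/-- the `i`-th block of four consecutive points -/
def blk (n i : ℕ) : Finset (Fin n) := Finset.univ.filter (fun x : Fin n => x.val / 4 = i)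

theorem mem_blk {i : ℕ} {x : Fin n} : x ∈ blk n i ↔ x.val / 4 = i := by
  unfold blk
  rw [Finset.mem_filter]
  exact ⟨fun h => h.2, fun h => ⟨Finset.mem_univ _, h⟩⟩

theorem card_blk {i : ℕ} (hi : i < n / 4) : (blk n i).card = 4 := by
  have h4 : 4 * i + 3 < n := by omega
  have h : blk n i = Finset.univ.image
      (fun j : Fin 4 => (⟨4 * i + j.val, by have := j.isLt; omega⟩ : Fin n)) := by
    ext x
    rw [mem_blk, Finset.mem_image]
    constructor
    · intro hx
      refine ⟨⟨x.val % 4, Nat.mod_lt _ (by norm_num)⟩, Finset.mem_univ _, ?_⟩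
      apply Fin.ext
      simp only
      omega
    · rintro ⟨j, -, rfl⟩
      have := j.isLt
      simp only
      omega
  rw [h, Finset.card_image_of_injective, Finset.card_univ, Fintype.card_fin]
  intro j j' hjj
  have := congrArg Fin.val hjj
  simp only at this
  apply Fin.ext
  omega

theorem blk_disjoint {i j : ℕ} (hij : i ≠ j) : Disjoint (blk n i) (blk n j) := by
  rw [Finset.disjoint_left]
  intro x hx hx'
  rw [mem_blk] at hx hx'
  exact hij (hx.symm.trans hx')

/-- the double transpositions on the blocks, as elements of `Alt(n)` -/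
def blkGens (n : ℕ) : Set (alternatingGroup (Fin n)) :=
  {g | ∃ i, i < n / 4 ∧ DT (blk n i) (g : Perm (Fin n))}

theorem blkGens_comm {a b : alternatingGroup (Fin n)} (ha : a ∈ blkGens n) (hb : b ∈ blkGens n) :
    a * b = b * a := by
  obtain ⟨i, hi, hai⟩ := ha
  obtain ⟨j, hj, hbj⟩ := hb
  apply Subtype.ext
  rw [Subgroup.coe_mul, Subgroup.coe_mul]
  by_cases hij : i = j
  · subst hij
    exact dt_comm (card_blk hi) hai hbj
  · exact dt_disjoint_comm hai hbj (blk_disjoint hij)

theorem blkGens_closure_comm {x y : alternatingGroup (Fin n)}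
    (hx : x ∈ Subgroup.closure (blkGens n)) (hy : y ∈ Subgroup.closure (blkGens n)) :
    x * y = y * x := by
  induction hx, hy using Subgroup.closure_induction₂ with
  | mem a b ha hb => exact blkGens_comm ha hb
  | one_left a _ => rw [one_mul, mul_one]
  | one_right a _ => rw [one_mul, mul_one]
  | mul_left a b c _ _ _ h1 h2 => rw [mul_assoc, h2, ← mul_assoc, h1, mul_assoc]
  | mul_right a b c _ _ _ h1 h2 => rw [← mul_assoc, h1, mul_assoc, h2, ← mul_assoc]
  | inv_left a b _ _ h => 
    have : a⁻¹ * b = a⁻¹ * (b * a) * a⁻¹ := by group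
    rw [this, ← h]; group
  | inv_right a b _ _ h =>
    have : a * b⁻¹ = b⁻¹ * (b * a) * b⁻¹ := by group
    rw [this, ← h]; group

theorem blkGens_sq {a : alternatingGroup (Fin n)} (ha : a ∈ Subgroup.closure (blkGens n)) :
    a * a = 1 := by
  induction ha using Subgroup.closure_induction with
  | mem g hg =>
    obtain ⟨i, hi, hgi⟩ := hg
    apply Subtype.ext
    rw [Subgroup.coe_mul]
    exact hgi.1
  | one => exact one_mul 1
  | mul x y hx hy ihx ihy =>
    have h := blkGens_closure_comm hx hy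
    calc x * y * (x * y) = x * (y * x) * y := by group
      _ = x * (x * y) * y := by rw [h]
      _ = (x * x) * (y * y) := by group
      _ = 1 := by rw [ihx, ihy, one_mul]
  | inv x hx ihx =>
    calc x⁻¹ * x⁻¹ = (x * x)⁻¹ := by group
      _ = 1 := by rw [ihx, inv_one]

/-- **[SYL]** -/
theorem pkgSyl : PkgSyl := by
  intro n hn H ⟨P, hPH⟩
  have hp : IsPGroup 2 ↥(Subgroup.closure (blkGens n)) := by
    intro g
    refine ⟨1, ?_⟩
    apply Subtype.ext
    rw [pow_one, Subgroup.coe_pow, pow_two]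
    exact blkGens_sq g.2
  obtain ⟨Q, hQ⟩ := hp.exists_le_sylow
  obtain ⟨g, hg⟩ := MulAction.exists_smul_eq (alternatingGroup (Fin n)) Q P
  have hFam : ∀ i, i < n / 4 → img (g : Perm (Fin n)) (blk n i) ∈ Fam H := by
    intro i hi
    refine ⟨by rw [card_img]; exact card_blk hi, fun τ hτ => ?_⟩
    have h1 := DT_conj_symm hτ
    have hsign : Perm.sign ((g : Perm (Fin n))⁻¹ * τ * (g : Perm (Fin n))) = 1 :=
      dt_sign (card_blk hi) h1
    have h2 : (⟨(g : Perm (Fin n))⁻¹ * τ * (g : Perm (Fin n)),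
        Equiv.Perm.mem_alternatingGroup.mpr hsign⟩ : alternatingGroup (Fin n)) ∈
        (Q : Subgroup (alternatingGroup (Fin n))) :=
      hQ (Subgroup.subset_closure ⟨i, hi, h1⟩)
    have h3 := Subgroup.smul_mem_pointwise_smul _ (MulAut.conj g) _ h2
    rw [← Sylow.coe_subgroup_smul, hg] at h3
    apply hPH
    refine ⟨_, h3, ?_⟩
    simp [MulAut.smul_def, MulAut.conj_apply, mul_assoc]
  have h8 : 1 < n / 4 := by omega
  refine ⟨img g (blk n 0), img g (blk n 1),
    img g (Finset.univ.filter (fun x : Fin n => x.val < 4 * (n / 4))),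
    hFam 0 (by omega), hFam 1 h8, ?_, ?_, ?_⟩
  · rw [Finset.disjoint_left]
    intro x hx hx'
    obtain ⟨y, hy, rfl⟩ := mem_img.mp hx
    rw [apply_mem_img] at hx'
    exact Finset.disjoint_left.mp (blk_disjoint (by norm_num)) hy hx'
  · rw [card_img, Fin.card_filter_val_lt]
    omega
  · intro x hx
    obtain ⟨y, hy, rfl⟩ := mem_img.mp hx
    rw [Finset.mem_filter] at hy
    have hi : y.val / 4 < n / 4 := by omega
    exact ⟨img g (blk n (y.val / 4)), hFam _ hi, apply_mem_img.mpr (mem_blk.mpr rfl)⟩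

end Cfsg.Agent.Lib.Helper48.Alt2
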